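import Cfsg.Agent.SP.Lie.Split
import Cfsg.Agent.H979.LieSplit

/-!
# S5755, condition (i) for the sixteen families of Lie type
-/

set_option autoImplicit false

namespace Cfsg.Agent.SP.Lie

open Subgroup Cfsg

/-- **condition (i) of S5755 for the simple groups of Lie type** -/
theorem pair_of_lie {T : Type*} [Group T] [Finite T] [IsSimpleGroup T] (hT : ¬ IsMulCommutative T) {p : ℕ}
    (hp : p.Prime) (h : IsLieTypeChar p T) :
    ∃ A B : Subgroup T, A ≠ ⊤ ∧ B < A ∧ (B.subgroupOf A).Normal ∧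
      ∀ τ : MulAut T, B ⊔ (A ⊓ A.map τ.toMonoidHom) = A :=
  haveI : Fact p.Prime := ⟨hp⟩
  pair_of_hasSplit hT (H979.LieSplit.hasSplit_of_isLieTypeChar hp h)

end Cfsg.Agent.SP.Lie
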