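import Cfsg.Agent.SP.Lie.Split
import Cfsg.Agent.SP.Lie.TitsBN
import Cfsg.Agent.H248.TitsDich

/-!
# S5755, condition (i) for the Tits group

`A` is the intersection of the Tits group with the parabolic subgroup of `²F₄(2)` of type `L₂(2)`.
-/

set_option autoImplicit false

namespace Cfsg.Agent.SP.Lie

open Subgroup Cfsg Cfsg.Agent.FixBN Cfsg.Agent.Schreier.BNSch
open Cfsg.Agent.LieExceptional

section normal

variable {K : Type*} [Group K] [Finite K] {p : ℕ} [hp : Fact p.Prime]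

/-- a Sylow subgroup meets a normal subgroup in a Sylow subgroup -/
theorem exists_sylow_inf (S : Sylow p K) (T : Subgroup K) [T.Normal] :
    ∃ Q : Sylow p T, (Q : Subgroup T) = (S : Subgroup K).subgroupOf T := by
  obtain ⟨Q0⟩ : Nonempty (Sylow p T) := inferInstance
  obtain ⟨R, hR⟩ := Sylow.exists_comap_subtype_eq Q0
  obtain ⟨g, hg⟩ := MulAction.exists_smul_eq K R S
  refine ⟨(MulAut.conjNormal g : MulAut T) • Q0, ?_⟩
  rw [Sylow.pointwise_smul_def, ← hR, ← hg]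
  ext x
  rw [mem_pointwise_smul_iff_inv_smul_mem, mem_subgroupOf, Sylow.coe_subgroup_smul,
    mem_pointwise_smul_iff_inv_smul_mem, mem_comap]
  simp [← map_inv]

/-- the case `B = U` for a normal subgroup containing a suitable root element -/
theorem pair_of_normal {P : BNPair K} (h : Split P p P.B) (T : Subgroup K) [T.Normal] [IsSimpleGroup T]
    (hT : ¬ IsMulCommutative T) {s x : K} (hs : s ∈ P.S) (hxB : x ∈ P.B) (hxT : x ∈ T)
    (hgen : ∀ M : Subgroup K, (∀ u ∈ P.B, s⁻¹ * u * s ∈ P.B → u ∈ M) → x ∈ M → P.B ≤ M)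
    (hN : ∀ n ∈ P.N, n⁻¹ * x * n ∈ P.B ∨ n⁻¹ * (s * x * s⁻¹) * n ∈ P.B) :
    ∃ A B : Subgroup T, A ≠ ⊤ ∧ B < A ∧ (B.subgroupOf A).Normal ∧
      ∀ τ : MulAut T, B ⊔ (A ⊓ A.map τ.toMonoidHom) = A := by
  obtain ⟨V, hV⟩ := h.node s hs
  obtain ⟨u, hu, huV⟩ := hV.ne
  obtain ⟨M, hVM, hMn, hMi⟩ := exists_hom_of_isPGroup h.isP (V := V.subgroupOf P.B) (by
    intro ht
    have : (⟨u, hu⟩ : P.B) ∈ V.subgroupOf P.B := ht ▸ mem_top _
    exact huV this)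
  have hC : Nat.card (P.B ⧸ M) = p := hMi
  have hcyc : IsCyclic (P.B ⧸ M) := isCyclic_of_prime_card hC
  let _ : CommGroup (P.B ⧸ M) := IsCyclic.commGroup
  obtain ⟨f, hf⟩ := exists_hom hs hV (QuotientGroup.mk' M) (fun v hv => (QuotientGroup.eq_one_iff v).2 (hVM hv))
  have hx : (⟨x, hxB⟩ : P.B) ∉ M := by
    intro hx
    have h1 := hgen (M.map P.B.subtype) (fun u hu h1 => ⟨⟨u, hu⟩, hVM (hV.stab u hu h1), rfl⟩) ⟨_, hx, rfl⟩
    have : M = ⊤ := eq_top_iff.2 fun y _ => by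
      obtain ⟨z, hz, hzy⟩ := h1 y.2
      rwa [← Subtype.ext hzy]
    rw [this, index_top] at hMi
    exact hp.1.one_lt.ne hMi
  have hfx : f ⟨x, B_le_parabolic P _ hxB⟩ ≠ 1 := by
    rw [hf x hxB]
    exact fun h1 => hx ((QuotientGroup.eq_one_iff _).1 h1)
  have conj : ∀ c y : P.parabolic {s}, f (c * y * c⁻¹) = f y := by
    intro c y
    rw [map_mul, map_mul, map_inv, mul_inv_cancel_comm]
  let ι : (P.parabolic {s}).subgroupOf T →* P.parabolic {s} :=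
    (T.subtype.comp (Subgroup.subtype _)).codRestrict _ fun a => a.2
  refine pair_of_hom_prime (by rw [hC]; exact hp.1) (A := (P.parabolic {s}).subgroupOf T) ?_ (f.comp ι) fun τ => ?_
  · intro ht
    let g : T →* P.B ⧸ M := (f.comp ι).comp ((MonoidHom.id T).codRestrict _ fun x => ht ▸ mem_top x)
    rcases g.normal_ker.eq_bot_or_eq_top with h1 | h1
    · have hinj : Function.Injective g := (MonoidHom.ker_eq_bot_iff g).1 h1
      exact hT ⟨⟨fun a b => hinj (by rw [map_mul, map_mul, mul_comm])⟩⟩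
    · have : (⟨x, hxT⟩ : T) ∈ g.ker := h1 ▸ mem_top _
      exact hfx this
  · obtain ⟨S, hS⟩ := H405.OutNode.exists_sylow h
    obtain ⟨Q, hQ⟩ := exists_sylow_inf S T
    obtain ⟨g, hg⟩ := exists_conj_of_aut Q τ
    rw [hQ, hS] at hg
    obtain ⟨n, hn, hC⟩ := BNPairCore.bruhat (P := P) (g : K)
    obtain ⟨b, hb, b', hb', he⟩ := BNPairCore.mem_C.1 hC
    have key : ∀ d : P.parabolic {s}, (d : K) ∈ T → n⁻¹ * d * n ∈ P.B → f d ≠ 1 →
        ∃ d : (P.parabolic {s}).subgroupOf T, (d : T) ∈ ((P.parabolic {s}).subgroupOf T).map τ.toMonoidHom ∧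
          (f.comp ι) d ≠ 1 := by
      intro d hd h1 h2
      have h3 : b * d * b⁻¹ ∈ T := ‹T.Normal›.conj_mem _ hd b
      have h4 : b * d * b⁻¹ ∈ P.parabolic {s} :=
        mul_mem (mul_mem (B_le_parabolic P _ hb) d.2) (inv_mem (B_le_parabolic P _ hb))
      refine ⟨⟨⟨_, h3⟩, h4⟩, ?_, ?_⟩
      · have h5 : g⁻¹ * ⟨_, h3⟩ * g ∈ P.B.subgroupOf T := by
          show (g : K)⁻¹ * (b * d * b⁻¹) * g ∈ P.B
          have : (g : K)⁻¹ * (b * d * b⁻¹) * g = b'⁻¹ * (n⁻¹ * d * n) * b' := by rw [he]; group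
          rw [this]
          exact mul_mem (mul_mem (inv_mem hb') h1) hb'
        have h6 := hg _ h5
        have h7 : g * (g⁻¹ * ⟨_, h3⟩ * g) * g⁻¹ = ⟨_, h3⟩ := by group
        rw [h7] at h6
        exact map_mono (comap_mono (B_le_parabolic P _)) h6
      · have := conj ⟨b, B_le_parabolic P _ hb⟩ d
        rw [← this] at h2
        exact h2
    rcases hN n hn with h1 | h1
    · exact key ⟨x, B_le_parabolic P _ hxB⟩ hxT h1 hfx
    · refine key (⟨s, mem_parabolic_self P s⟩ * ⟨x, B_le_parabolic P _ hxB⟩ * ⟨s, mem_parabolic_self P s⟩⁻¹)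
        (‹T.Normal›.conj_mem _ hxT s) h1 ?_
      rwa [conj]

end normal

section full

open Cfsg.Agent.KFacts.TwF4 Cfsg.Agent.KFacts.TwF4.Full Cfsg.Agent.KFacts.TwF4.Arc
open Cfsg.Agent.SplitTwo Cfsg.Agent.SplitTwo.ZS Cfsg.Agent.H248.TwF4Over

variable {F : Type*} [Field F] {σ : F →+* F} {G : Type*} [Group G] (S : Full σ G)

theorem closure_o {n : G} (hn : n ∈ closure ({S.n1, S.n2} : Set G)) :
    ∃ a : ZMod 8, n⁻¹ * S.o 0 1 * n = S.o a 1 ∧ n⁻¹ * S.o 4 1 * n = S.o (a + 4) 1 := by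
  have i1 : S.n1⁻¹ = S.n1 := inv_eq_of_mul_eq_one_right S.n1_sq
  have i2 : S.n2⁻¹ = S.n2 := inv_eq_of_mul_eq_one_right S.n2_sq
  have key : ∀ x : G, ∀ y ∈ ({S.n1, S.n2} : Set G),
      (∃ a : ZMod 8, x⁻¹ * S.o 0 1 * x = S.o a 1 ∧ x⁻¹ * S.o 4 1 * x = S.o (a + 4) 1) →
      ∃ a : ZMod 8, (x * y)⁻¹ * S.o 0 1 * (x * y) = S.o a 1 ∧ (x * y)⁻¹ * S.o 4 1 * (x * y) = S.o (a + 4) 1 := by
    rintro x y hy ⟨a, h1, h2⟩
    have e : ∀ z, (x * y)⁻¹ * z * (x * y) = y⁻¹ * (x⁻¹ * z * x) * y⁻¹⁻¹ := fun z => by group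
    rw [e, e, h1, h2]
    rcases hy with rfl | rfl
    · refine ⟨4 - a, ?_, ?_⟩
      · rw [i1, S.n1_o]
      · rw [i1, S.n1_o]
        congr 1
        clear h1 h2; revert a; decide
    · refine ⟨3 - a, ?_, ?_⟩
      · rw [i2, S.n2_o]
      · rw [i2, S.n2_o]
        congr 1
        clear h1 h2; revert a; decide
  induction hn using closure_induction_right with
  | one => exact ⟨0, by simp, by simp⟩
  | mul_right x _ y hy ih => exact key x y hy ih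
  | mul_inv_cancel x _ y hy ih =>
    have : y⁻¹ = y := by
      rcases hy with rfl | rfl
      exacts [i1, i2]
    rw [this]
    exact key x y hy ih

theorem o_mem_or (a : ZMod 8) : S.o a 1 ∈ J S.XZ 1 8 ∨ S.o (a + 4) 1 ∈ J S.XZ 1 8 := by
  have h0 : S.o 0 1 ∈ J S.XZ 1 8 := mem_J ((mem_X1 S).2 ⟨1, rfl⟩) (by norm_num) (by norm_num)
  have h1 : S.o 1 1 ∈ J S.XZ 1 8 := mem_J ((mem_X3 S).2 ⟨1, rfl⟩) (by norm_num) (by norm_num)
  have h2 : S.o 2 1 ∈ J S.XZ 1 8 := mem_J ((mem_X5 S).2 ⟨1, rfl⟩) (by norm_num) (by norm_num)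
  have h3 : S.o 3 1 ∈ J S.XZ 1 8 := mem_J ((mem_X7 S).2 ⟨1, rfl⟩) (by norm_num) (by norm_num)
  have key : ∀ a : ZMod 8, (a = 0 ∨ a = 1 ∨ a = 2 ∨ a = 3) ∨ (a + 4 = 0 ∨ a + 4 = 1 ∨ a + 4 = 2 ∨ a + 4 = 3) := by
    decide
  rcases key a with (h | h | h | h) | (h | h | h | h) <;> rw [h]
  exacts [Or.inl h0, Or.inl h1, Or.inl h2, Or.inl h3, Or.inr h0, Or.inr h1, Or.inr h2, Or.inr h3]

theorem n1_conj_J {v : G} (hv : v ∈ J S.XZ 2 8) : S.n1⁻¹ * v * S.n1 ∈ J S.XZ 1 8 := by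
  have i1 : S.n1⁻¹ = S.n1 := inv_eq_of_mul_eq_one_right S.n1_sq
  have h1 : J S.XZ 2 8 ≤ (J S.XZ 1 8).comap (MulAut.conj S.n1).toMonoidHom := by
    refine J_le fun k h1 h2 x hx => ?_
    show S.n1 * x * S.n1⁻¹ ∈ J S.XZ 1 8
    exact mem_J (k := 10 - k) ((S.n1_refl k x).1 hx) (by omega) (by omega)
  have h2 : S.n1 * v * S.n1⁻¹ ∈ J S.XZ 1 8 := h1 hv
  rw [i1] at h2 ⊢
  exact h2

theorem pair_of_full [Finite G] {P : BNPair G} (h : Split P 2 (J S.XZ 1 8)) (hPS : P.S = {S.n1, S.n2})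
    (htor : ∀ x ∈ P.B, x ∈ P.N → x = 1) (T : Subgroup G) [T.Normal] [IsSimpleGroup T] (hT : ¬ IsMulCommutative T)
    (h2 : Two F T) :
    ∃ A B : Subgroup T, A ≠ ⊤ ∧ B < A ∧ (B.subgroupOf A).Normal ∧
      ∀ τ : MulAut T, B ⊔ (A ⊓ A.map τ.toMonoidHom) = A := by
  have : Fact (Nat.Prime 2) := ⟨Nat.prime_two⟩
  have hB : J S.XZ 1 8 = P.B := by
    refine le_antisymm h.le fun b hb => ?_
    obtain ⟨u, hu, h1⟩ := h.cover b hb
    have h3 := htor _ (mul_mem (inv_mem (h.le hu)) hb) h1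
    rwa [← inv_mul_eq_one.1 h3]
  have hN : P.N = closure {S.n1, S.n2} := by
    rw [← P.closure_sup, hPS]
    refine le_antisymm (sup_le le_rfl fun x hx => ?_) le_sup_left
    rw [htor x hx.1 hx.2]
    exact one_mem _
  refine pair_of_normal (p := 2) (hB ▸ h) T hT (s := S.n1) (x := S.o 0 1) (by rw [hPS]; exact Set.mem_insert _ _)
    (hB ▸ mem_J ((mem_X1 S).2 ⟨1, rfl⟩) (by norm_num) (by norm_num)) (two_o_mem S h2 0 1) ?_ ?_
  · intro M hM hx u hu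
    rw [← hB] at hu hM
    obtain ⟨y, hy, v, hv, rfl⟩ := S.zsys8.split_ll (a := 1) (b := 8) (by norm_num) (by norm_num) hu
    refine mul_mem ?_ (hM v (J_mono (by norm_num) le_rfl hv) (n1_conj_J S hv))
    obtain ⟨t, rfl⟩ := (mem_X1 S).1 hy
    rcases h2.two t with rfl | rfl
    · rw [S.o_zero]; exact one_mem _
    · exact hx
  · intro n hn
    rw [hN] at hn
    obtain ⟨a, h3, h4⟩ := closure_o S hn
    rw [S.n1_o, sub_zero, h3, h4, ← hB]
    exact o_mem_or S a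

end full

/-- **condition (i) of S5755 for the Tits group** -/
theorem pair_tits : ∃ A B : Subgroup Cfsg.Lie.TitsGroup, A ≠ ⊤ ∧ B < A ∧ (B.subgroupOf A).Normal ∧
    ∀ τ : MulAut Cfsg.Lie.TitsGroup, B ⊔ (A ⊓ A.map τ.toMonoidHom) = A := by
  obtain ⟨hidx, hsimp, hna, hcard⟩ := Cfsg.Agent.S1074.result
  obtain ⟨φ, S, P, -, h1, h2, h3⟩ := TitsBN.exists_bn (K := ZMod 2) (m := 0) (by simp)
  have : Finite ↥(Cfsg.Lie.twistedF4 (ZMod 2) (2 ^ 0)) := inferInstance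
  have : IsSimpleGroup ↥(commutator ↥(Cfsg.Lie.twistedF4 (ZMod 2) (2 ^ 0))) := hsimp
  refine pair_of_full S h1 h2 (fun x hx hx' => by simpa using h3 x hx hx')
    (commutator ↥(Cfsg.Lie.twistedF4 (ZMod 2) (2 ^ 0))) ?_ ⟨by decide, le_rfl, fun ht => ?_⟩
  · exact hna
  · have h4 : (commutator ↥(Cfsg.Lie.twistedF4 (ZMod 2) (2 ^ 0))).index = 2 := hidx
    rw [ht, index_top] at h4
    exact absurd h4 (by norm_num)

end Cfsg.Agent.SP.Lie
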