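import Cfsg.Agent.SP.Iface
import Cfsg.Agent.SP.Lie.Chev
import Cfsg.Agent.SP.Lie.Tits
import Cfsg.Agent.SP.Alt.Alt
import Cfsg.Agent.H912.KnownSplit
import Cfsg.Agent.S0253
import Cfsg.Agent.S0254

/-!
# S5755: the rows of the alternating groups, the groups of Lie type and the Tits group
-/

set_option autoImplicit false

namespace Cfsg.Agent.SP

open Cfsg Cfsg.Agent.H912.Known

universe u

section

variable {T : Type u} [Group T] [Finite T] [IsSimpleGroup T]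

theorem pairAut_of_lie (hT : ¬ IsMulCommutative T) {p : ℕ} (hp : p.Prime) (h : IsLieTypeChar p T) : PairAut T :=
  Lie.pair_of_lie hT hp h

theorem pairAut_of_psl (hT : ¬ IsMulCommutative T) (h : IsPSL T) : PairAut T := by
  obtain ⟨F, _, _, n, h1, h2, h3⟩ := h
  obtain ⟨p, hp, hF⟩ := exists_char F
  exact pairAut_of_lie hT hp (Or.inl ⟨F, _, _, hF, n, h1, h2, h3⟩)

theorem pairAut_of_alt (hT : ¬ IsMulCommutative T) (h : IsAlternating T) : PairAut T := by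
  obtain ⟨n, hn, ⟨e⟩⟩ := h
  rcases (by omega : n = 5 ∨ n = 6 ∨ 7 ≤ n) with rfl | rfl | h7
  · have : Fact (Nat.Prime 5) := ⟨by norm_num⟩
    obtain ⟨e'⟩ := S0253.psl_zmod5
    exact pairAut_of_psl hT ⟨ZMod 5, inferInstance, inferInstance, 2, le_rfl, fun _ => by rw [ZMod.card]; norm_num,
      ⟨e.trans e'.symm⟩⟩
  · let _ : Fintype (GaloisField 3 2) := Fintype.ofFinite _
    have h9 : Fintype.card (GaloisField 3 2) = 9 := by
      rw [← Nat.card_eq_fintype_card, GaloisField.card 3 2 (by norm_num)]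
      norm_num
    obtain ⟨e'⟩ := S0254.result h9
    exact pairAut_of_psl hT ⟨GaloisField 3 2, inferInstance, inferInstance, 2, le_rfl, fun _ => by rw [h9]; norm_num,
      ⟨e.trans e'.symm⟩⟩
  · exact PairAut.of_equiv (Alt.pair_alt h7) e.symm

theorem pairAut_of_exc (hT : ¬ IsMulCommutative T) {p : ℕ} (hp : p.Prime) (h : IsExceptionalChevChar p T) :
    PairAut T :=
  pairAut_of_lie hT hp (Or.inr (Or.inr (Or.inr (Or.inr (Or.inr (Or.inr (Or.inl h)))))))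

theorem pairAut_of_tw (hT : ¬ IsMulCommutative T) {p : ℕ} (hp : p.Prime) (h : IsTwistedE6D4Char p T) :
    PairAut T :=
  pairAut_of_lie hT hp (Or.inr (Or.inr (Or.inr (Or.inr (Or.inr (Or.inr (Or.inr (Or.inl h))))))))

end

theorem pairAut_tits : PairAut Cfsg.Lie.TitsGroup := Lie.pair_tits

/-- **the rows of the alternating groups, the sixteen families of Lie type and the Tits group** -/
theorem lieRows : LieRows.{u} where
  alt := fun _ _ _ _ hT h => pairAut_of_alt hT h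
  psl := fun _ _ _ _ hT h => pairAut_of_psl hT h
  psp := fun _ _ _ _ hT h => by
    obtain ⟨F, _, _, n, h1, h2, h3⟩ := h
    obtain ⟨p, hp, hF⟩ := exists_char F
    exact pairAut_of_lie hT hp (Or.inr (Or.inl ⟨F, _, _, hF, n, h1, h2, h3⟩))
  psu := fun _ _ _ _ hT h => by
    obtain ⟨F, _, _, n, q, h1, h2, h3, h5⟩ := h
    obtain ⟨p, hp, hF⟩ := exists_char F
    exact pairAut_of_lie hT hp (Or.inr (Or.inr (Or.inl ⟨F, _, _, hF, n, q, h1, h2, h3, h5⟩)))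
  oodd := fun _ _ _ _ hT h => by
    obtain ⟨F, _, _, n, h1, h2, h3⟩ := h
    obtain ⟨p, hp, hF⟩ := exists_char F
    exact pairAut_of_lie hT hp (Or.inr (Or.inr (Or.inr (Or.inl ⟨F, _, _, hF, n, h1, h2, h3⟩))))
  oplus := fun T _ _ _ hT h => by
    obtain ⟨F, iF, iT, n, h1, h3⟩ := h
    obtain ⟨p, hp, hF⟩ := exists_char F
    have key : IsPOmegaPlusChar p T := ⟨F, iF, iT, hF, n, h1, h3⟩
    exact pairAut_of_lie hT hp (Or.inr (Or.inr (Or.inr (Or.inr (Or.inl key)))))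
  ominus := fun T _ _ _ hT h => by
    obtain ⟨F, iF, iT, n, a, b, h1, h2, h3⟩ := h
    obtain ⟨p, hp, hF⟩ := exists_char F
    have key : IsPOmegaMinusChar p T := ⟨F, iF, iT, hF, n, a, b, h1, h2, h3⟩
    exact pairAut_of_lie hT hp (Or.inr (Or.inr (Or.inr (Or.inr (Or.inr (Or.inl key))))))
  g2 := fun _ _ _ _ hT h => by
    obtain ⟨F, iF, iT, h1, h2⟩ := h
    obtain ⟨p, hp, hF⟩ := exists_char F
    exact pairAut_of_exc hT hp ⟨F, iF, iT, hF, Or.inl ⟨h1, h2⟩⟩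
  f4 := fun _ _ _ _ hT h => by
    obtain ⟨F, iF, iT, h⟩ := h
    obtain ⟨p, hp, hF⟩ := exists_char F
    exact pairAut_of_exc hT hp ⟨F, iF, iT, hF, Or.inr (Or.inl h)⟩
  e6 := fun _ _ _ _ hT h => by
    obtain ⟨F, iF, iT, h⟩ := h
    obtain ⟨p, hp, hF⟩ := exists_char F
    exact pairAut_of_exc hT hp ⟨F, iF, iT, hF, Or.inr (Or.inr (Or.inl h))⟩
  e7 := fun _ _ _ _ hT h => by
    obtain ⟨F, iF, iT, h⟩ := h
    obtain ⟨p, hp, hF⟩ := exists_char F
    exact pairAut_of_exc hT hp ⟨F, iF, iT, hF, Or.inr (Or.inr (Or.inr (Or.inl h)))⟩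
  e8 := fun _ _ _ _ hT h => by
    obtain ⟨F, iF, iT, h⟩ := h
    obtain ⟨p, hp, hF⟩ := exists_char F
    exact pairAut_of_exc hT hp ⟨F, iF, iT, hF, Or.inr (Or.inr (Or.inr (Or.inr h)))⟩
  e6t := fun _ _ _ _ hT h => by
    obtain ⟨F, iF, iT, q, hq, h1, h2⟩ := h
    obtain ⟨p, hp, hF⟩ := exists_char F
    exact pairAut_of_tw hT hp ⟨F, iF, iT, hF, q, hq, Or.inl ⟨h1, h2⟩⟩
  d4t := fun _ _ _ _ hT h => by
    obtain ⟨F, iF, iT, q, hq, h1, h2⟩ := h
    obtain ⟨p, hp, hF⟩ := exists_char F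
    exact pairAut_of_tw hT hp ⟨F, iF, iT, hF, q, hq, Or.inr ⟨h1, h2⟩⟩
  sz := fun _ _ _ _ hT h => pairAut_of_lie hT Nat.prime_two
    (Or.inr (Or.inr (Or.inr (Or.inr (Or.inr (Or.inr (Or.inr (Or.inr (Or.inl ⟨rfl, h⟩)))))))))
  ree := fun _ _ _ _ hT h => pairAut_of_lie hT Nat.prime_three
    (Or.inr (Or.inr (Or.inr (Or.inr (Or.inr (Or.inr (Or.inr (Or.inr (Or.inr (Or.inr ⟨rfl, h⟩))))))))))
  f4t := fun _ _ _ _ hT h => pairAut_of_lie hT Nat.prime_two
    (Or.inr (Or.inr (Or.inr (Or.inr (Or.inr (Or.inr (Or.inr (Or.inr (Or.inr (Or.inl ⟨rfl, h⟩))))))))))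
  tits := fun _ _ _ _ _ ⟨e⟩ => PairAut.of_equiv pairAut_tits e.symm

end Cfsg.Agent.SP
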