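import Cfsg.Agent.SP.Lie.Wiel
import Cfsg.Agent.FixBN.Split
import Cfsg.Agent.LieExceptional.BNPairCore
import Cfsg.Agent.H405.OutNode

/-!
# S5755, condition (i) for a simple group with a split (B, N)-pair

If `U < B` take `(A, B) = (B, U)`. If `B = U` take a minimal parabolic and the kernel of a transfer.
-/

set_option autoImplicit false

namespace Cfsg.Agent.SP.Lie

open Subgroup Cfsg Cfsg.Agent.FixBN Cfsg.Agent.Schreier.BNSch
open Cfsg.Agent.LieExceptional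

variable {K : Type*} [Group K]

/-- if the length goes up, `B = (B ∩ sBs⁻¹)(B ∩ nBn⁻¹)` -/
theorem exists_fact (P : BNPair K) {s n b : K} (hs : s ∈ P.S) (hn : n ∈ P.N) (hb : b ∈ P.B)
    (h : BNPairCore.len P n ≤ BNPairCore.len P (s * n)) :
    ∃ y ∈ P.B, n⁻¹ * y * n ∈ P.B ∧ s⁻¹ * (b * y⁻¹) * s ∈ P.B := by
  have hss : (s * s)⁻¹ ∈ P.B := inv_mem (P.sq_mem s hs)
  have h1 := BNPairCore.mul_mem_C_of_le hs hn (mul_mem hss hb) h
  obtain ⟨b2, hb2, b3, hb3, he⟩ := BNPairCore.mem_C.1 h1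
  -- `s⁻¹ b n = b2 s n b3`
  have he' : s⁻¹ * b * n = b2 * (s * n) * b3 := by rw [← he]; group
  have hy : n * b3 * n⁻¹ = s⁻¹ * b2⁻¹ * s⁻¹ * b := by
    have : b3 = (b2 * (s * n))⁻¹ * (s⁻¹ * b * n) := by rw [he']; group
    rw [this]; group
  have hyB : n * b3 * n⁻¹ ∈ P.B := by
    have hpar : n * b3 * n⁻¹ ∈ P.parabolic {s} := by
      rw [hy]
      have h2 := mem_parabolic_self P s
      exact mul_mem (mul_mem (mul_mem (inv_mem h2) (B_le_parabolic P _ (inv_mem hb2))) (inv_mem h2))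
        (B_le_parabolic P _ hb)
    rcases mem_parabolic_singleton P hs hpar with h2 | ⟨c, hc, c', hc', h2⟩
    · exact h2
    · exfalso
      have h3 : n * b3 ∈ BNPairCore.C P (s * n) := by
        have : n * b3 = c * (s * c' * n) := by
          have h4 : n * b3 = (n * b3 * n⁻¹) * n := by group
          rw [h4, h2]; group
        rw [this]
        exact BNPairCore.mul_mem_C_left hc (BNPairCore.mul_mem_C_of_le hs hn hc' h)
      have h4 : n * b3 ∈ BNPairCore.C P n := BNPairCore.mul_mem_C_right hb3 (BNPairCore.self_mem_C n)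
      exact BNPairCore.not_C_mul_left_eq hs hn (BNPairCore.C_eq_of_mem_mem h3 h4)
  refine ⟨n * b3 * n⁻¹, hyB, ?_, ?_⟩
  · have : n⁻¹ * (n * b3 * n⁻¹) * n = b3 := by group
    rwa [this]
  · rw [hy]
    have : s⁻¹ * (b * (s⁻¹ * b2⁻¹ * s⁻¹ * b)⁻¹) * s = b2 * (s * s) := by group
    rw [this]
    exact mul_mem hb2 (P.sq_mem s hs)

section

variable [Finite K] {p : ℕ} [hp : Fact p.Prime] {P : BNPair K} {U : Subgroup K}

/-- every automorphism moves `B` to a conjugate `b n B n⁻¹ b⁻¹` -/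
theorem exists_bruhat (h : Split P p U) (τ : MulAut K) :
    ∃ b ∈ P.B, ∃ n ∈ P.N, ∀ x ∈ P.B, b * n * x * (b * n)⁻¹ ∈ P.B.map τ.toMonoidHom := by
  obtain ⟨S, hS⟩ := H405.OutNode.exists_sylow h
  obtain ⟨g, hg⟩ := MulAction.exists_smul_eq K S (τ • S)
  have h1 : U.map (MulAut.conj g).toMonoidHom = U.map τ.toMonoidHom := by
    have h2 : ((g • S : Sylow p K) : Subgroup K) = ((τ • S : Sylow p K) : Subgroup K) := by rw [hg]
    rw [Sylow.coe_subgroup_smul, Sylow.pointwise_smul_def, hS] at h2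
    exact h2
  have h3 : P.B.map (MulAut.conj g).toMonoidHom = P.B.map τ.toMonoidHom := by
    rw [← h.normalizer_eq, map_equiv_normalizer_eq U (MulAut.conj g), map_equiv_normalizer_eq U τ, h1]
  obtain ⟨n, hn, hC⟩ := BNPairCore.bruhat (P := P) g
  obtain ⟨b, hb, b', hb', rfl⟩ := BNPairCore.mem_C.1 hC
  refine ⟨b, hb, n, hn, fun x hx => ?_⟩
  rw [← h3]
  refine ⟨b'⁻¹ * x * b', mul_mem (mul_mem (inv_mem hb') hx) hb', ?_⟩
  simp only [MulEquiv.toMonoidHom_eq_coe, MonoidHom.coe_coe, MulAut.conj_apply]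
  group

/-- the Borel case -/
theorem pair_of_lt (h : Split P p U) (hS : P.S.Nonempty) (hlt : U ≠ P.B) :
    ∃ A B : Subgroup K, A ≠ ⊤ ∧ B < A ∧ (B.subgroupOf A).Normal ∧
      ∀ τ : MulAut K, B ⊔ (A ⊓ A.map τ.toMonoidHom) = A := by
  refine ⟨P.B, U, ?_, lt_of_le_of_ne h.le hlt, ?_, fun τ => ?_⟩
  · obtain ⟨s, hs⟩ := hS
    intro hB
    exact not_mem_B P hs (hB ▸ mem_top s)
  · constructor
    intro u hu b
    rw [mem_subgroupOf] at hu ⊢
    exact h.norm b b.2 u hu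
  · apply le_antisymm (sup_le h.le inf_le_left)
    obtain ⟨b, hb, n, hn, hτ⟩ := exists_bruhat h τ
    intro x hx
    obtain ⟨u, hu, t, ht, he⟩ := h.cover' (mul_mem (mul_mem (inv_mem hb) hx) hb)
    have h1 : x = (b * u * b⁻¹) * (b * t * b⁻¹) := by
      have : x = b * (b⁻¹ * x * b) * b⁻¹ := by group
      rw [this, he]; group
    rw [h1]
    refine mul_mem (mem_sup_left (h.norm b hb u hu))
      (mem_sup_right (mem_inf.2 ⟨P.B.mul_mem (P.B.mul_mem hb ht.1) (P.B.inv_mem hb), ?_⟩))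
    have h2 := hτ _ (BNPairCore.conj_mem_inv hn ht.1 ht.2)
    have h3 : b * n * (n⁻¹ * t * n) * (b * n)⁻¹ = b * t * b⁻¹ := by group
    rwa [h3] at h2

omit hp in
/-- the homomorphism on the minimal parabolic -/
theorem exists_hom {V : Subgroup K} {s : K} (hs : s ∈ P.S) (hN : Node P P.B s V) {C : Type*} [CommGroup C]
    (ψ : P.B →* C) (hψ : ∀ v : P.B, (v : K) ∈ V → ψ v = 1) :
    ∃ f : P.parabolic {s} →* C, ∀ (b : K) (hb : b ∈ P.B), f ⟨b, B_le_parabolic P _ hb⟩ = ψ ⟨b, hb⟩ := by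
  let B' : Subgroup (P.parabolic {s}) := P.B.subgroupOf (P.parabolic {s})
  let ϕ : B' →* C := ψ.comp (subgroupOfEquivOfLe (B_le_parabolic P {s})).toMonoidHom
  refine ⟨MonoidHom.transfer ϕ, fun b hb => ?_⟩
  refine transfer_eq_of_wielandt B' ϕ ?_ ⟨⟨b, B_le_parabolic P _ hb⟩, hb⟩
  intro g hg x hx hgx
  apply hψ
  show (g : K)⁻¹ * x * g ∈ V
  have hgx' : (g : K)⁻¹ * x * g ∈ P.B := hgx
  have hx' : (x : K) ∈ P.B := hx
  rcases mem_parabolic_singleton P hs g.2 with h1 | ⟨c, hc, c', hc', h1⟩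
  · exact absurd h1 hg
  · rw [h1] at hgx' ⊢
    have h2 : s⁻¹ * (c⁻¹ * x * c) * s ∈ P.B := by
      have h3 : s⁻¹ * (c⁻¹ * x * c) * s = c' * ((c * s * c')⁻¹ * x * (c * s * c')) * c'⁻¹ := by group
      rw [h3]
      exact mul_mem (mul_mem hc' hgx') (inv_mem hc')
    have h3 := hN.conj_s _ (hN.stab _ (mul_mem (mul_mem (inv_mem hc) hx') hc) h2)
    have h4 := hN.conj_B _ (inv_mem hc') _ h3
    have h5 : c'⁻¹ * (s⁻¹ * (c⁻¹ * x * c) * s) * c'⁻¹⁻¹ = (c * s * c')⁻¹ * x * (c * s * c') := by group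
    rwa [h5] at h4

omit [Finite K] hp in
/-- every value of `f` on `B` is taken on `P_s ∩ g B g⁻¹`, by an element conjugate in `P_s` to an element `y` of `B` -/
theorem exists_val {V : Subgroup K} {s : K} (hs : s ∈ P.S) (hN : Node P P.B s V) {C : Type*} [CommGroup C]
    (f : P.parabolic {s} →* C) (hf : ∀ v : P.parabolic {s}, (v : K) ∈ V → f v = 1) {b n : K} (hb : b ∈ P.B)
    (hn : n ∈ P.N) (x : P.parabolic {s}) (hx : (x : K) ∈ P.B) :
    ∃ d : P.parabolic {s}, (b * n)⁻¹ * d * (b * n) ∈ P.B ∧ f d = f x := by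
  have key : ∀ m ∈ P.N, BNPairCore.len P m ≤ BNPairCore.len P (s * m) →
      ∃ y : P.parabolic {s}, m⁻¹ * y * m ∈ P.B ∧ f y = f x := by
    intro m hm hl
    obtain ⟨y, hy, h1, h2⟩ := exists_fact P hs hm hx hl
    refine ⟨⟨y, B_le_parabolic P _ hy⟩, h1, ?_⟩
    have h3 := hf (x * (⟨y, B_le_parabolic P _ hy⟩ : P.parabolic {s})⁻¹)
      (hN.stab _ (mul_mem hx (inv_mem hy)) h2)
    rw [map_mul, map_inv, mul_inv_eq_one] at h3
    exact h3.symm
  have conj : ∀ c y : P.parabolic {s}, f (c * y * c⁻¹) = f y := by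
    intro c y
    rw [map_mul, map_mul, map_inv, mul_inv_cancel_comm]
  have hsN := P.subset hs
  rcases le_total (BNPairCore.len P n) (BNPairCore.len P (s * n)) with hl | hl
  · obtain ⟨y, h1, h2⟩ := key n hn hl
    refine ⟨⟨b, B_le_parabolic P _ hb⟩ * y * ⟨b, B_le_parabolic P _ hb⟩⁻¹, ?_, by rw [conj, h2]⟩
    show (b * n)⁻¹ * (b * y * b⁻¹) * (b * n) ∈ P.B
    have : (b * n)⁻¹ * (b * y * b⁻¹) * (b * n) = n⁻¹ * y * n := by group
    rwa [this]
  · obtain ⟨y, h1, h2⟩ := key (s * n) (mul_mem hsN hn) (by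
      rw [BNPairCore.len_congr (BNPairCore.rel_sq_mul hs hn)]; exact hl)
    let c : P.parabolic {s} := ⟨b, B_le_parabolic P _ hb⟩ * (⟨s, mem_parabolic_self P s⟩ : P.parabolic {s})⁻¹
    refine ⟨c * y * c⁻¹, ?_, by rw [conj, h2]⟩
    show (b * n)⁻¹ * (b * s⁻¹ * y * (b * s⁻¹)⁻¹) * (b * n) ∈ P.B
    have : (b * n)⁻¹ * (b * s⁻¹ * y * (b * s⁻¹)⁻¹) * (b * n) = (s * n)⁻¹ * y * (s * n) := by group
    rwa [this]

/-- a proper subgroup of a finite `p`-group lies in the kernel of a homomorphism onto a group of order `p` -/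
theorem exists_hom_of_isPGroup {Q : Type*} [Group Q] [Finite Q] (hQ : IsPGroup p Q) {V : Subgroup Q} (hV : V ≠ ⊤) :
    ∃ M : Subgroup Q, V ≤ M ∧ M.Normal ∧ M.index = p := by
  obtain ⟨M, hM, hVM⟩ := (eq_top_or_exists_le_coatom V).resolve_left hV
  have := hQ.isNilpotent
  have hn : M.Normal := NormalizerCondition.normal_of_coatom M Group.normalizerCondition_of_isNilpotent hM
  refine ⟨M, hVM, hn, ?_⟩
  obtain ⟨k, hk⟩ := hQ.index M
  have hk0 : k ≠ 0 := by
    rintro rfl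
    exact hM.1 (index_eq_one.1 (by simpa using hk))
  have hcard : Nat.card (Q ⧸ M) = p ^ k := hk
  obtain ⟨W, hW⟩ := Sylow.exists_subgroup_card_pow_prime (G := Q ⧸ M) p (n := 1)
    (by rw [hcard]; exact pow_dvd_pow _ (Nat.one_le_iff_ne_zero.2 hk0))
  have h1 : M ≤ W.comap (QuotientGroup.mk' M) := by
    intro x hx
    rw [mem_comap, QuotientGroup.mk'_apply, (QuotientGroup.eq_one_iff x).2 hx]
    exact one_mem _
  rcases hM.le_iff.1 h1 with h2 | h2
  · have h3 : W = ⊤ := by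
      rw [← map_comap_eq_self_of_surjective (QuotientGroup.mk'_surjective M) W, h2,
        map_top_of_surjective _ (QuotientGroup.mk'_surjective M)]
    rw [h3, card_top, pow_one] at hW
    exact hW
  · exfalso
    have h3 : W = ⊥ := by
      rw [← map_comap_eq_self_of_surjective (QuotientGroup.mk'_surjective M) W, h2, eq_bot_iff]
      rintro _ ⟨x, hx, rfl⟩
      exact (QuotientGroup.eq_one_iff x).2 hx
    rw [h3, card_bot, pow_one] at hW
    exact hp.1.one_lt.ne hW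

/-- the case `B = U` -/
theorem pair_of_eq [IsSimpleGroup K] (hK : ¬ IsMulCommutative K) (h : Split P p P.B) (hS : P.S.Nonempty) :
    ∃ A B : Subgroup K, A ≠ ⊤ ∧ B < A ∧ (B.subgroupOf A).Normal ∧
      ∀ τ : MulAut K, B ⊔ (A ⊓ A.map τ.toMonoidHom) = A := by
  obtain ⟨s, hs⟩ := hS
  obtain ⟨V, hN⟩ := h.node s hs
  obtain ⟨u, hu, huV⟩ := hN.ne
  obtain ⟨M, hVM, hMn, hMi⟩ := exists_hom_of_isPGroup h.isP (V := V.subgroupOf P.B) (by
    intro ht
    have : (⟨u, hu⟩ : P.B) ∈ V.subgroupOf P.B := ht ▸ mem_top _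
    exact huV this)
  have hC : Nat.card (P.B ⧸ M) = p := hMi
  have hcyc : IsCyclic (P.B ⧸ M) := isCyclic_of_prime_card hC
  let _ : CommGroup (P.B ⧸ M) := IsCyclic.commGroup
  obtain ⟨f, hf⟩ := exists_hom hs hN (QuotientGroup.mk' M) (fun v hv => (QuotientGroup.eq_one_iff v).2 (hVM hv))
  obtain ⟨x, hx⟩ : ∃ x : P.B, x ∉ M := by
    by_contra hcon
    push Not at hcon
    have : M = ⊤ := eq_top_iff.2 fun x _ => hcon x
    rw [this, index_top] at hMi
    exact hp.1.one_lt.ne hMi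
  have hfx : f ⟨x, B_le_parabolic P _ x.2⟩ ≠ 1 := by
    rw [hf x x.2]
    exact fun h1 => hx ((QuotientGroup.eq_one_iff x).1 h1)
  refine pair_of_hom_prime (by rw [hC]; exact hp.1) (A := P.parabolic {s}) ?_ f fun τ => ?_
  · intro ht
    let g : K →* P.B ⧸ M := f.comp ((MonoidHom.id K).codRestrict _ fun x => ht ▸ mem_top x)
    rcases g.normal_ker.eq_bot_or_eq_top with h1 | h1
    · have hinj : Function.Injective g := (MonoidHom.ker_eq_bot_iff g).1 h1
      exact hK ⟨⟨fun a b => hinj (by rw [map_mul, map_mul, mul_comm])⟩⟩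
    · have : (x : K) ∈ g.ker := h1 ▸ mem_top _
      exact hfx this
  · obtain ⟨b, hb, n, hn, hτ⟩ := exists_bruhat h τ
    obtain ⟨d, hd, hfd⟩ := exists_val hs hN f (fun v hv => by
      have h1 := hf v (hN.le hv)
      exact h1.trans ((QuotientGroup.eq_one_iff _).2 (hVM hv))) hb hn ⟨x, B_le_parabolic P _ x.2⟩ x.2
    refine ⟨d, ?_, by rw [hfd]; exact hfx⟩
    have h2 := hτ _ hd
    have h3 : b * n * ((b * n)⁻¹ * d * (b * n)) * (b * n)⁻¹ = d := by group
    rw [h3] at h2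
    exact map_mono (B_le_parabolic P _) h2

/-- **condition (i) of S5755 for simple groups with a split (B, N)-pair** -/
theorem pair_of_hasSplit [IsSimpleGroup K] (hK : ¬ IsMulCommutative K) (h : HasSplit p K) :
    ∃ A B : Subgroup K, A ≠ ⊤ ∧ B < A ∧ (B.subgroupOf A).Normal ∧
      ∀ τ : MulAut K, B ⊔ (A ⊓ A.map τ.toMonoidHom) = A := by
  obtain ⟨P, U, hS, h⟩ := h
  by_cases hU : U = P.B
  · subst hU
    exact pair_of_eq hK h hS
  · exact pair_of_lt h hS hU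

end

end Cfsg.Agent.SP.Lie
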