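import Mathlib

/-!
# S5755: the transfer under Wielandt's condition, and small tools for supplemented pairs
-/

set_option autoImplicit false

namespace Cfsg.Agent.SP.Lie

open Subgroup MulAction

/-- If `ϕ` kills every `B ∩ g⁻¹ B g`, `g ∉ B`, the transfer restricts to `ϕ` on `B`. -/
theorem transfer_eq_of_wielandt {H A : Type*} [Group H] [Finite H] [CommGroup A] (B : Subgroup H) (ϕ : B →* A)
    (hW : ∀ g : H, g ∉ B → ∀ x ∈ B, ∀ h : g⁻¹ * x * g ∈ B, ϕ ⟨_, h⟩ = 1) (x : B) :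
    MonoidHom.transfer ϕ (x : H) = ϕ x := by
  classical
  have : Fintype (Quotient (orbitRel (zpowers (x : H)) (H ⧸ B))) := Fintype.ofFinite _
  rw [MonoidHom.transfer_eq_prod_quotient_orbitRel_zpowers_quot]
  have hfix : ∀ z : zpowers (x : H), z • ((1 : H) : H ⧸ B) = ((1 : H) : H ⧸ B) := by
    rintro ⟨z, hz⟩
    have hzB : z ∈ B := (zpowers_le_of_mem x.2) hz
    show ((z * 1 : H) : H ⧸ B) = ((1 : H) : H ⧸ B)
    rw [QuotientGroup.eq]
    simpa using hzB
  let q0 : Quotient (orbitRel (zpowers (x : H)) (H ⧸ B)) := Quotient.mk _ ((1 : H) : H ⧸ B)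
  have hq0 : q0.out = ((1 : H) : H ⧸ B) := by
    have h1 : (orbitRel (zpowers (x : H)) (H ⧸ B)) q0.out ((1 : H) : H ⧸ B) := Quotient.mk_out _
    rw [orbitRel_apply] at h1
    obtain ⟨z, hz⟩ := h1
    rw [← hz]
    exact hfix z
  rw [Finset.prod_eq_single q0]
  · have hg : q0.out.out ∈ B := by
      have h1 : ((q0.out.out : H) : H ⧸ B) = ((1 : H) : H ⧸ B) := by rw [QuotientGroup.out_eq', hq0]
      rw [QuotientGroup.eq] at h1
      simpa using h1
    have hk : Function.minimalPeriod ((x : H) • ·) q0.out = 1 := by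
      rw [Function.minimalPeriod_eq_one_iff_isFixedPt, hq0]
      exact hfix ⟨x, mem_zpowers _⟩
    have h2 : (⟨q0.out.out⁻¹ * (x : H) ^ Function.minimalPeriod ((x : H) • ·) q0.out * q0.out.out,
        QuotientGroup.out_conj_pow_minimalPeriod_mem B (x : H) q0.out⟩ : B) =
        (⟨_, hg⟩ : B)⁻¹ * x * ⟨_, hg⟩ := by
      apply Subtype.ext
      simp [hk]
    rw [h2, map_mul, map_mul, map_inv, mul_comm, ← mul_assoc, mul_inv_cancel, one_mul]
  · intro q _ hq
    apply hW _ _ _ (pow_mem x.2 _)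
    intro hg
    apply hq
    have h1 : q.out = ((1 : H) : H ⧸ B) := by
      rw [← QuotientGroup.out_eq' q.out, QuotientGroup.eq]
      simpa using hg
    rw [← Quotient.out_eq q, h1]
  · intro h
    exact absurd (Finset.mem_univ _) h

/-- A supplement lemma: `B = ker f ∩ A`, and every value of `f` on `A` is taken on `D`. -/
theorem sup_eq_of_hom {G C : Type*} [Group G] [Group C] {A D : Subgroup G} (f : A →* C) (hD : D ≤ A)
    (h : ∀ a : A, ∃ d : A, (d : G) ∈ D ∧ f d = f a) : f.ker.map A.subtype ⊔ D = A := by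
  apply le_antisymm (sup_le (map_subtype_le _) hD)
  intro a ha
  obtain ⟨d, hd, hfd⟩ := h ⟨a, ha⟩
  have h1 : (⟨a, ha⟩ : A) * d⁻¹ ∈ f.ker := by
    rw [MonoidHom.mem_ker, map_mul, map_inv, hfd, mul_inv_cancel]
  have h2 : a = ((⟨a, ha⟩ : A) * d⁻¹ : A) * (d : G) := by simp
  rw [h2]
  exact mul_mem (mem_sup_left ⟨_, h1, rfl⟩) (mem_sup_right hd)

theorem ker_map_normal {G C : Type*} [Group G] [Group C] {A : Subgroup G} (f : A →* C) :
    ((f.ker.map A.subtype).subgroupOf A).Normal := by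
  have : (f.ker.map A.subtype).subgroupOf A = f.ker := by
    ext a
    rw [mem_subgroupOf]
    constructor
    · rintro ⟨b, hb, hab⟩
      have : b = a := Subtype.ext hab
      rwa [← this]
    · intro ha
      exact ⟨a, ha, rfl⟩
  rw [this]
  infer_instance

theorem ker_map_lt {G C : Type*} [Group G] [Group C] {A : Subgroup G} (f : A →* C) (h : ∃ a : A, f a ≠ 1) :
    f.ker.map A.subtype < A := by
  refine lt_of_le_of_ne (map_subtype_le _) fun he => ?_
  obtain ⟨a, ha⟩ := h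
  have h1 : (a : G) ∈ f.ker.map A.subtype := by rw [he]; exact a.2
  obtain ⟨b, hb, hab⟩ := h1
  have : b = a := Subtype.ext hab
  exact ha (this ▸ hb)

/-- Condition (i) of S5755 from a nontrivial homomorphism on `A`. -/
theorem pair_of_hom {G C : Type*} [Group G] [Group C] {A : Subgroup G} (hA : A ≠ ⊤) (f : A →* C)
    (hf : ∃ a : A, f a ≠ 1)
    (h : ∀ τ : MulAut G, ∀ a : A, ∃ d : A, (d : G) ∈ A.map τ.toMonoidHom ∧ f d = f a) :
    ∃ A B : Subgroup G, A ≠ ⊤ ∧ B < A ∧ (B.subgroupOf A).Normal ∧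
      ∀ τ : MulAut G, B ⊔ (A ⊓ A.map τ.toMonoidHom) = A := by
  refine ⟨A, f.ker.map A.subtype, hA, ker_map_lt f hf, ker_map_normal f, fun τ => ?_⟩
  refine sup_eq_of_hom f inf_le_left fun a => ?_
  obtain ⟨d, hd, hfd⟩ := h τ a
  exact ⟨d, ⟨d.2, hd⟩, hfd⟩

/-- Condition (i) of S5755 from a homomorphism to a group of prime order. -/
theorem pair_of_hom_prime {G C : Type*} [Group G] [Group C] (hC : (Nat.card C).Prime) {A : Subgroup G} (hA : A ≠ ⊤)
    (f : A →* C) (h : ∀ τ : MulAut G, ∃ d : A, (d : G) ∈ A.map τ.toMonoidHom ∧ f d ≠ 1) :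
    ∃ A B : Subgroup G, A ≠ ⊤ ∧ B < A ∧ (B.subgroupOf A).Normal ∧
      ∀ τ : MulAut G, B ⊔ (A ⊓ A.map τ.toMonoidHom) = A := by
  have : Fact (Nat.card C).Prime := ⟨hC⟩
  refine pair_of_hom hA f ?_ fun τ a => ?_
  · obtain ⟨d, -, hd⟩ := h 1
    exact ⟨d, hd⟩
  · obtain ⟨d, hd, hfd⟩ := h τ
    obtain ⟨k, hk⟩ := mem_powers_of_prime_card (G := C) rfl hfd (g' := f a)
    refine ⟨d ^ k, ?_, by rw [map_pow]; exact hk⟩
    simpa using pow_mem hd k

/-- Transport of condition (i) along an isomorphism. -/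
theorem pair_congr {G H : Type*} [Group G] [Group H] (e : G ≃* H)
    (h : ∃ A B : Subgroup H, A ≠ ⊤ ∧ B < A ∧ (B.subgroupOf A).Normal ∧
      ∀ τ : MulAut H, B ⊔ (A ⊓ A.map τ.toMonoidHom) = A) :
    ∃ A B : Subgroup G, A ≠ ⊤ ∧ B < A ∧ (B.subgroupOf A).Normal ∧
      ∀ τ : MulAut G, B ⊔ (A ⊓ A.map τ.toMonoidHom) = A := by
  obtain ⟨A, B, h1, h2, h3, h4⟩ := h
  have hinj : Function.Injective (Subgroup.map e.symm.toMonoidHom : Subgroup H → Subgroup G) :=
    map_injective e.symm.injective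
  refine ⟨A.map e.symm.toMonoidHom, B.map e.symm.toMonoidHom, ?_, ?_, ?_, fun τ => ?_⟩
  · intro h
    apply h1
    apply hinj
    rw [h, map_top_of_surjective _ e.symm.surjective]
  · exact lt_of_le_of_ne (map_mono h2.le) fun h => h2.ne (hinj h)
  · constructor
    rintro ⟨_, b, hb, rfl⟩ hb' ⟨_, a, ha, rfl⟩
    rw [mem_subgroupOf] at hb' ⊢
    obtain ⟨b', hb'', hbb⟩ := hb'
    have hbe : b' = b := e.symm.injective hbb
    subst hbe
    have := h3.conj_mem ⟨b', hb⟩ (mem_subgroupOf.2 hb'') ⟨a, ha⟩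
    rw [mem_subgroupOf] at this
    refine ⟨_, this, ?_⟩
    show e.symm (a * b' * a⁻¹) = e.symm a * e.symm b' * (e.symm a)⁻¹
    simp
  · have h5 := h4 ((e.symm.trans τ).trans e)
    have h6 : (A.map e.symm.toMonoidHom).map τ.toMonoidHom =
        (A.map ((e.symm.trans τ).trans e).toMonoidHom).map e.symm.toMonoidHom := by
      rw [map_map, map_map]
      congr 1
      ext x
      simp
    rw [h6, ← map_inf _ _ _ e.symm.injective, ← Subgroup.map_sup]
    exact congrArg _ h5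

/-- An automorphism moves a Sylow subgroup to a conjugate. -/
theorem exists_conj_of_aut {G : Type*} [Group G] [Finite G] {p : ℕ} [Fact p.Prime] (S : Sylow p G) (τ : MulAut G) :
    ∃ g : G, ∀ u ∈ (S : Subgroup G), g * u * g⁻¹ ∈ (S : Subgroup G).map τ.toMonoidHom := by
  obtain ⟨g, hg⟩ := MulAction.exists_smul_eq G S (τ • S)
  refine ⟨g, fun u hu => ?_⟩
  have h1 : g * u * g⁻¹ ∈ ((g • S : Sylow p G) : Subgroup G) := by
    rw [Sylow.coe_subgroup_smul]
    exact ⟨u, hu, rfl⟩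
  rw [hg] at h1
  exact h1

end Cfsg.Agent.SP.Lie
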